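import Mathlib
import Cfsg.Agent.H668.Five.Rows
import Cfsg.Agent.H514.DP.Emb

/-!
# `Good` for quotients by the centre

`PGood H` is a condition on `H` which passes to larger groups and gives `Good (H / Z(H))`.
-/

set_option autoImplicit false

open Cfsg

namespace Cfsg.Agent.H686.Five

open Cfsg.Agent.H668.Five

/-- elements of odd order generating an element of even order -/
theorem not_compl_of_gen {X : Type*} [Group X] [Finite X] {x y t : X} (hx : Odd (orderOf x))
    (hy : Odd (orderOf y)) (ht : t ∈ Subgroup.closure ({x, y} : Set X)) (h2 : 2 ∣ orderOf t) :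
    ¬ HasNormalPComplement 2 X := by
  intro hX
  obtain ⟨N, hN, hpN, k, hk⟩ :=
    OddOrderLocal.NilpotentQuotient.exists_of_hasNormalPComplement hX
  have key : ∀ h : X, Odd (orderOf h) → h ∈ N := by
    intro h hodd
    have h1 : h ^ (2 ^ k) ∈ N := by
      rw [← hk]
      exact Subgroup.pow_index_mem N h
    have h2 : Nat.Coprime (2 ^ k) (orderOf h) :=
      Nat.Coprime.pow_left k (Nat.coprime_two_left.2 hodd)
    have h3 : h ∈ Subgroup.zpowers (h ^ (2 ^ k)) := by
      obtain ⟨m, hm⟩ := exists_pow_eq_self_of_coprime h2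
      exact Subgroup.mem_zpowers_iff.2 ⟨(m : ℤ), by rw [zpow_natCast]; exact hm⟩
    exact (Subgroup.zpowers_le.2 h1) h3
  have hcl : Subgroup.closure ({x, y} : Set X) ≤ N := by
    rw [Subgroup.closure_le]
    intro g hg
    rcases hg with rfl | hg
    · exact key _ hx
    · rw [Set.mem_singleton_iff] at hg
      subst hg
      exact key _ hy
  have h7 : orderOf t ∣ Nat.card N := by
    have := orderOf_dvd_natCard (⟨t, hcl ht⟩ : N)
    rwa [Subgroup.orderOf_mk] at this
  exact hpN (h2.trans h7)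

/-- the same in a centralizer -/
theorem NN.of_gen {X : Type*} [Group X] [Finite X] {z x y t : X} (hx : Odd (orderOf x))
    (hy : Odd (orderOf y)) (hzx : x * z = z * x) (hzy : y * z = z * y)
    (ht : t ∈ Subgroup.closure ({x, y} : Set X)) (h2 : 2 ∣ orderOf t) : NN z := by
  refine NN.of_le (K := Subgroup.closure ({x, y} : Set X)) ?_ ?_
  · have e : ∀ g (hg : g ∈ Subgroup.closure ({x, y} : Set X)),
        orderOf (⟨g, hg⟩ : Subgroup.closure ({x, y} : Set X)) = orderOf g :=
      fun g hg => Subgroup.orderOf_mk _ _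
    have hxm : x ∈ Subgroup.closure ({x, y} : Set X) := Subgroup.subset_closure (by simp)
    have hym : y ∈ Subgroup.closure ({x, y} : Set X) := Subgroup.subset_closure (by simp)
    refine not_compl_of_gen (x := ⟨x, hxm⟩) (y := ⟨y, hym⟩) (t := ⟨t, ht⟩) (by rwa [e]) (by rwa [e])
      ?_ (by rwa [e])
    have h1 : Subgroup.map (Subgroup.closure ({x, y} : Set X)).subtype
        (Subgroup.closure ({⟨x, hxm⟩, ⟨y, hym⟩} : Set (Subgroup.closure ({x, y} : Set X)))) =
        Subgroup.closure ({x, y} : Set X) := by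
      rw [MonoidHom.map_closure, Set.image_pair]
      rfl
    have h2 : t ∈ Subgroup.map (Subgroup.closure ({x, y} : Set X)).subtype
        (Subgroup.closure ({⟨x, hxm⟩, ⟨y, hym⟩} : Set (Subgroup.closure ({x, y} : Set X)))) := by
      rw [h1]
      exact ht
    obtain ⟨s, hs, hst⟩ := h2
    have : s = ⟨t, ht⟩ := Subtype.ext hst
    rwa [this] at hs
  · intro g hg
    have hle : Subgroup.closure ({x, y} : Set X) ≤ Subgroup.centralizer ({z} : Set X) := by
      rw [Subgroup.closure_le]
      intro g hg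
      rcases hg with rfl | hg
      · exact Subgroup.mem_centralizer_singleton_iff.2 hzx
      · rw [Set.mem_singleton_iff] at hg
        subst hg
        exact Subgroup.mem_centralizer_singleton_iff.2 hzy
    exact Subgroup.mem_centralizer_singleton_iff.1 (hle hg)

/-- `x`, `y` of odd order commute with `z` and generate a non-central `2`-element -/
def Pair {H : Type*} [Group H] (z : H) : Prop :=
  ∃ x y t : H, Odd (orderOf x) ∧ Odd (orderOf y) ∧ x * z = z * x ∧ y * z = z * y ∧
    t ∈ Subgroup.closure ({x, y} : Set H) ∧ (∃ k : ℕ, t ^ (2 ^ k) = 1) ∧ t ∉ Subgroup.center H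

/-- the commutator form -/
theorem Pair.of_comm {H : Type*} [Group H] {z h a : H} (hh : Odd (orderOf h)) (hz : h * z = z * h)
    (ha : a * z = z * a) (h2 : ∃ k : ℕ, (h * a * h⁻¹ * a⁻¹) ^ (2 ^ k) = 1)
    (hc : h * a * h⁻¹ * a⁻¹ ∉ Subgroup.center H) : Pair z := by
  refine ⟨h, a * h⁻¹ * a⁻¹, h * a * h⁻¹ * a⁻¹, hh, ?_, hz, ?_, ?_, h2, hc⟩
  · have : a * h⁻¹ * a⁻¹ = MulAut.conj a h⁻¹ := rfl
    rw [this, MulEquiv.orderOf_eq, orderOf_inv]
    exact hh
  · have h1 : Commute a z := ha
    have h2 : Commute h z := hz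
    exact ((h1.mul_left h2.inv_left).mul_left h1.inv_left)
  · have : h * a * h⁻¹ * a⁻¹ = h * (a * h⁻¹ * a⁻¹) := by group
    rw [this]
    exact Subgroup.mul_mem _ (Subgroup.subset_closure (by simp)) (Subgroup.subset_closure (by simp))

/-- the condition on `H` -/
def PGood (H : Type*) [Group H] : Prop :=
  (∃ v : H, v ^ 4 = 1 ∧ v ^ 2 ∉ Subgroup.center H ∧ Pair v) ∨
  (∃ z w : H, z ^ 2 = 1 ∧ z ∉ Subgroup.center H ∧ Pair z ∧ w ^ 8 = 1 ∧
    w ^ 4 ∉ Subgroup.center H)

section map

variable {H : Type*} [Group H] {G : Type*} [Group G]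

theorem notMem_center_map (f : H →* G) (hf : Function.Injective f) {t : H}
    (ht : t ∉ Subgroup.center H) : f t ∉ Subgroup.center G := by
  intro h
  apply ht
  rw [Subgroup.mem_center_iff] at h ⊢
  intro g
  apply hf
  rw [map_mul, map_mul]
  exact h (f g)

theorem Pair.map (f : H →* G) (hf : Function.Injective f) {z : H} (h : Pair z) : Pair (f z) := by
  obtain ⟨x, y, t, hx, hy, hzx, hzy, ht, ⟨k, hk⟩, hc⟩ := h
  refine ⟨f x, f y, f t, by rwa [orderOf_injective f hf], by rwa [orderOf_injective f hf],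
    by rw [← map_mul, ← map_mul, hzx], by rw [← map_mul, ← map_mul, hzy], ?_,
    ⟨k, by rw [← map_pow, hk, map_one]⟩, notMem_center_map f hf hc⟩
  have h1 := Subgroup.mem_map_of_mem f ht
  rwa [MonoidHom.map_closure, Set.image_pair] at h1

theorem PGood.map (f : H →* G) (hf : Function.Injective f) (h : PGood H) : PGood G := by
  rcases h with ⟨v, hv, hv2, hP⟩ | ⟨z, w, hz, hzc, hP, hw, hwc⟩
  · refine Or.inl ⟨f v, by rw [← map_pow, hv, map_one], ?_, hP.map f hf⟩
    rw [← map_pow]
    exact notMem_center_map f hf hv2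
  · refine Or.inr ⟨f z, f w, by rw [← map_pow, hz, map_one], notMem_center_map f hf hzc,
      hP.map f hf, by rw [← map_pow, hw, map_one], ?_⟩
    rw [← map_pow]
    exact notMem_center_map f hf hwc

end map

section quot

variable {H : Type*} [Group H]

theorem odd_orderOf_mk {x : H} (hx : Odd (orderOf x)) :
    Odd (orderOf (QuotientGroup.mk x : H ⧸ Subgroup.center H)) := by
  have h1 : orderOf (QuotientGroup.mk x : H ⧸ Subgroup.center H) ∣ orderOf x :=
    orderOf_map_dvd (QuotientGroup.mk' (Subgroup.center H)) x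
  exact hx.of_dvd_nat h1

variable [Finite H]

theorem Pair.nn {z : H} (h : Pair z) : NN (QuotientGroup.mk z : H ⧸ Subgroup.center H) := by
  obtain ⟨x, y, t, hx, hy, hzx, hzy, ht, ⟨k, hk⟩, hc⟩ := h
  refine NN.of_gen (x := QuotientGroup.mk x) (y := QuotientGroup.mk y) (t := QuotientGroup.mk t)
    (odd_orderOf_mk hx) (odd_orderOf_mk hy) ?_ ?_ ?_ ?_
  · rw [← QuotientGroup.mk_mul, ← QuotientGroup.mk_mul, hzx]
  · rw [← QuotientGroup.mk_mul, ← QuotientGroup.mk_mul, hzy]
  · have h1 := Subgroup.mem_map_of_mem (QuotientGroup.mk' (Subgroup.center H)) ht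
    rwa [MonoidHom.map_closure, Set.image_pair] at h1
  · have h1 : orderOf (QuotientGroup.mk t : H ⧸ Subgroup.center H) ∣ 2 ^ k := by
      apply orderOf_dvd_of_pow_eq_one
      rw [← QuotientGroup.mk_pow, hk, QuotientGroup.mk_one]
    obtain ⟨j, hj, hj2⟩ := (Nat.dvd_prime_pow Nat.prime_two).1 h1
    rcases Nat.eq_zero_or_pos j with rfl | hj0
    · rw [pow_zero, orderOf_eq_one_iff, QuotientGroup.eq_one_iff] at hj2
      exact absurd hj2 hc
    · rw [hj2]
      exact dvd_pow_self 2 (by omega)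

theorem PGood.good (h : PGood H) : Good (H ⧸ Subgroup.center H) := by
  rcases h with ⟨v, hv, hv2, hP⟩ | ⟨z, w, hz, hzc, hP, hw, hwc⟩
  · refine Or.inl ⟨QuotientGroup.mk v, ?_, hP.nn⟩
    have : Fact (Nat.Prime 2) := ⟨Nat.prime_two⟩
    rw [show (4 : ℕ) = 2 ^ (1 + 1) from rfl]
    apply orderOf_eq_prime_pow
    · rw [pow_one, ← QuotientGroup.mk_pow, QuotientGroup.eq_one_iff]
      exact hv2
    · rw [show (2 : ℕ) ^ (1 + 1) = 4 from rfl, ← QuotientGroup.mk_pow, hv, QuotientGroup.mk_one]
  · refine Or.inr ⟨QuotientGroup.mk z, QuotientGroup.mk w, ?_, hP.nn, ?_⟩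
    · apply orderOf_eq_prime
      · rw [← QuotientGroup.mk_pow, hz, QuotientGroup.mk_one]
      · intro h
        rw [QuotientGroup.eq_one_iff] at h
        exact hzc h
    · have : Fact (Nat.Prime 2) := ⟨Nat.prime_two⟩
      rw [show (8 : ℕ) = 2 ^ (2 + 1) from rfl]
      apply orderOf_eq_prime_pow
      · rw [show (2 : ℕ) ^ 2 = 4 from rfl, ← QuotientGroup.mk_pow, QuotientGroup.eq_one_iff]
        exact hwc
      · rw [show (2 : ℕ) ^ (2 + 1) = 8 from rfl, ← QuotientGroup.mk_pow, hw, QuotientGroup.mk_one]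

end quot

theorem not_center_of_ne {H : Type*} [Group H] {t g : H} (h : g * t ≠ t * g) :
    t ∉ Subgroup.center H := fun hc => h (Subgroup.mem_center_iff.1 hc g)

theorem odd_orderOf_of_pow {H : Type*} [Group H] {x : H} {n : ℕ} (hn : Odd n) (h : x ^ n = 1) :
    Odd (orderOf x) := hn.of_dvd_nat (orderOf_dvd_of_pow_eq_one h)

end Cfsg.Agent.H686.Five
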