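import Mathlib
import Cfsg.Agent.H686.Five.Gen
import Cfsg.Agent.H982.LawFam
import Cfsg.Agent.S0248
import Cfsg.Prelude.Def_Classification2

/-!
# Rows `PSL_n(q)`, `n ≥ 3`, and the orthogonal groups, `q` odd
-/

set_option autoImplicit false

open Cfsg

namespace Cfsg.Agent.H686.Five

open Cfsg.Agent.H668.Five Matrix

section three

variable {F : Type*} [Field F]

theorem sl_mul_eq {n : Type*} [Fintype n] [DecidableEq n] {A B C : SpecialLinearGroup n F}
    (h : A.1 * B.1 = C.1) : A * B = C := Subtype.ext h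

/-- upper transvection in the corner -/
def xU (a : F) : SpecialLinearGroup (Fin 3) F :=
  ⟨!![1, a, 0; 0, 1, 0; 0, 0, 1], by simp [det_fin_three]⟩

/-- lower transvection in the corner -/
def xL (a : F) : SpecialLinearGroup (Fin 3) F :=
  ⟨!![1, 0, 0; a, 1, 0; 0, 0, 1], by simp [det_fin_three]⟩

/-- the involution -/
def zz : SpecialLinearGroup (Fin 3) F :=
  ⟨!![-1, 0, 0; 0, -1, 0; 0, 0, 1], by simp [det_fin_three]⟩

/-- a transvection not commuting with the involution -/
def uu : SpecialLinearGroup (Fin 3) F :=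
  ⟨!![1, 0, 1; 0, 1, 0; 0, 0, 1], by simp [det_fin_three]⟩

theorem xU_zero : xU (0 : F) = 1 := by
  apply Subtype.ext
  show !![1, (0 : F), 0; 0, 1, 0; 0, 0, 1] = 1
  ext i j
  fin_cases i <;> fin_cases j <;> simp

theorem xL_zero : xL (0 : F) = 1 := by
  apply Subtype.ext
  show !![1, (0 : F), 0; 0, 1, 0; 0, 0, 1] = 1
  ext i j
  fin_cases i <;> fin_cases j <;> simp

theorem xU_mul (a b : F) : xU a * xU b = xU (a + b) := by
  apply sl_mul_eq
  show !![1, a, 0; 0, 1, 0; 0, 0, 1] * !![1, b, 0; 0, 1, 0; 0, 0, 1] =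
    !![1, a + b, 0; 0, 1, 0; 0, 0, 1]
  ext i j
  fin_cases i <;> fin_cases j <;> simp [mul_apply, Fin.sum_univ_three]
  ring

theorem xL_mul (a b : F) : xL a * xL b = xL (a + b) := by
  apply sl_mul_eq
  show !![1, 0, 0; a, 1, 0; 0, 0, 1] * !![1, 0, 0; b, 1, 0; 0, 0, 1] =
    !![1, 0, 0; a + b, 1, 0; 0, 0, 1]
  ext i j
  fin_cases i <;> fin_cases j <;> simp [mul_apply, Fin.sum_univ_three]

theorem xU_pow (a : F) (n : ℕ) : xU a ^ n = xU (n * a) := by
  induction n with
  | zero => rw [pow_zero, Nat.cast_zero, zero_mul, xU_zero]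
  | succ n ih =>
    rw [pow_succ, ih, xU_mul]
    congr 1
    push_cast
    ring

theorem xL_pow (a : F) (n : ℕ) : xL a ^ n = xL (n * a) := by
  induction n with
  | zero => rw [pow_zero, Nat.cast_zero, zero_mul, xL_zero]
  | succ n ih =>
    rw [pow_succ, ih, xL_mul]
    congr 1
    push_cast
    ring

variable [Fintype F]

theorem odd_xU (hF : Odd (Fintype.card F)) (a : F) : Odd (orderOf (xU a)) := by
  apply odd_orderOf_of_pow hF
  rw [xU_pow, Nat.cast_card_eq_zero, zero_mul, xU_zero]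

theorem odd_xL (hF : Odd (Fintype.card F)) (a : F) : Odd (orderOf (xL a)) := by
  apply odd_orderOf_of_pow hF
  rw [xL_pow, Nat.cast_card_eq_zero, zero_mul, xL_zero]

theorem two_ne (hF : Odd (Fintype.card F)) : (2 : F) ≠ 0 := by
  intro h
  have h1 : ringChar F ∣ 2 := (ringChar.spec F 2).1 (by exact_mod_cast h)
  have h2 : ringChar F ∣ Fintype.card F := (ringChar.spec F _).1 (Nat.cast_card_eq_zero F)
  have h3 : ringChar F = 2 := by
    rcases (Nat.dvd_prime Nat.prime_two).1 h1 with h | h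
    · exfalso
      have := CharP.char_ne_one F (ringChar F)
      exact this h
    · exact h
  rw [h3] at h2
  exact (Nat.not_even_iff_odd.2 hF) (even_iff_two_dvd.2 h2)

theorem neg_one_ne (hF : Odd (Fintype.card F)) : (-1 : F) ≠ 1 := by
  intro h
  apply two_ne hF
  linear_combination -h

theorem exists_w (hF : Odd (Fintype.card F)) :
    ∃ w : SpecialLinearGroup (Fin 3) F, w ^ 4 = zz := by
  have key : ∀ (M : Matrix (Fin 3) (Fin 3) F), M.det = 1 →
      (M * M) * (M * M) = !![-1, 0, 0; 0, -1, 0; 0, 0, 1] →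
      ∃ w : SpecialLinearGroup (Fin 3) F, w ^ 4 = zz := by
    intro M hM h
    have h4 : ∀ w : SpecialLinearGroup (Fin 3) F, w ^ 4 = (w * w) * (w * w) := by
      intro w
      rw [show (4 : ℕ) = 2 * 2 from rfl, pow_mul, pow_two, pow_two]
    refine ⟨⟨M, hM⟩, ?_⟩
    refine (h4 _).trans ?_
    apply sl_mul_eq
    exact h
  by_cases h1 : IsSquare (-1 : F)
  · obtain ⟨i, hi⟩ := h1
    refine key !![0, i, 0; 1, 0, 0; 0, 0, i] ?_ ?_
    · simp [det_fin_three]
      linear_combination hi
    · ext a b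
      fin_cases a <;> fin_cases b <;> simp [mul_apply, Fin.sum_univ_three]
      · linear_combination (-1 : F) * hi
      · linear_combination (-1 : F) * hi
      · linear_combination (1 - i * i) * hi
  · by_cases h2 : IsSquare (2 : F)
    · obtain ⟨s, hs⟩ := h2
      refine key !![s, -1, 0; 1, 0, 0; 0, 0, 1] ?_ ?_
      · simp [det_fin_three]
      · ext a b
        fin_cases a <;> fin_cases b <;> simp [mul_apply, Fin.sum_univ_three]
        · linear_combination (1 - s * s) * hs
        · linear_combination s * hs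
        · linear_combination -s * hs
        · linear_combination hs
    · have h3 : IsSquare (-2 : F) := by
        classical
        have hc : ringChar F ≠ 2 := by
          intro h
          apply two_ne hF
          have := (ringChar.spec F 2).2 (by rw [h])
          exact_mod_cast this
        have h1' := quadraticChar_neg_one_iff_not_isSquare.2 h1
        have h2' := quadraticChar_neg_one_iff_not_isSquare.2 h2
        have h3' : quadraticChar F (-2) = 1 := by
          rw [show (-2 : F) = (-1) * 2 by ring, map_mul, h1', h2']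
          norm_num
        exact (quadraticChar_one_iff_isSquare (neg_ne_zero.2 (two_ne hF))).1 h3'
      obtain ⟨s, hs⟩ := h3
      refine key !![s, 1, 0; 1, 0, 0; 0, 0, -1] ?_ ?_
      · simp [det_fin_three]
      · ext a b
        fin_cases a <;> fin_cases b <;> simp [mul_apply, Fin.sum_univ_three]
        · linear_combination -(1 + s * s) * hs
        · linear_combination -s * hs
        · linear_combination -s * hs
        · linear_combination -hs

theorem pgood_sl_three (hF : Odd (Fintype.card F)) : PGood (SpecialLinearGroup (Fin 3) F) := by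
  obtain ⟨w, hw⟩ := exists_w hF
  have hzz : (zz : SpecialLinearGroup (Fin 3) F) ^ 2 = 1 := by
    rw [pow_two]
    apply sl_mul_eq
    show !![-1, (0 : F), 0; 0, -1, 0; 0, 0, 1] * !![-1, 0, 0; 0, -1, 0; 0, 0, 1] = 1
    ext i j
    fin_cases i <;> fin_cases j <;> simp [mul_apply, Fin.sum_univ_three]
  have hzc : (zz : SpecialLinearGroup (Fin 3) F) ∉ Subgroup.center _ := by
    apply not_center_of_ne (g := uu)
    intro h
    have h1 : (!![1, 0, 1; 0, 1, 0; 0, 0, 1] : Matrix (Fin 3) (Fin 3) F) *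
        !![-1, 0, 0; 0, -1, 0; 0, 0, 1] =
      !![-1, 0, 0; 0, -1, 0; 0, 0, 1] * !![1, 0, 1; 0, 1, 0; 0, 0, 1] :=
      congrArg Subtype.val h
    have h2 := congrFun (congrFun h1 0) 2
    simp [mul_apply, Fin.sum_univ_three] at h2
    exact neg_one_ne hF h2.symm
  have hc1 : ∀ a : F, xU a * zz = zz * xU a := by
    intro a
    apply Subtype.ext
    show !![1, a, 0; 0, 1, 0; 0, 0, 1] * !![-1, 0, 0; 0, -1, 0; 0, 0, 1] =
      !![-1, (0 : F), 0; 0, -1, 0; 0, 0, 1] * !![1, a, 0; 0, 1, 0; 0, 0, 1]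
    ext i j
    fin_cases i <;> fin_cases j <;> simp [mul_apply, Fin.sum_univ_three]
  have hc2 : ∀ a : F, xL a * zz = zz * xL a := by
    intro a
    apply Subtype.ext
    show !![1, 0, 0; a, 1, 0; 0, 0, 1] * !![-1, 0, 0; 0, -1, 0; 0, 0, 1] =
      !![-1, (0 : F), 0; 0, -1, 0; 0, 0, 1] * !![1, 0, 0; a, 1, 0; 0, 0, 1]
    ext i j
    fin_cases i <;> fin_cases j <;> simp [mul_apply, Fin.sum_univ_three]
  have ht : (xU 1 * xL (-1) * xU 1 : SpecialLinearGroup (Fin 3) F) ^ 2 = zz := by
    rw [pow_two]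
    apply sl_mul_eq
    show (!![1, (1 : F), 0; 0, 1, 0; 0, 0, 1] * !![1, 0, 0; -1, 1, 0; 0, 0, 1] *
        !![1, 1, 0; 0, 1, 0; 0, 0, 1]) *
      (!![1, 1, 0; 0, 1, 0; 0, 0, 1] * !![1, 0, 0; -1, 1, 0; 0, 0, 1] *
        !![1, 1, 0; 0, 1, 0; 0, 0, 1]) = !![-1, 0, 0; 0, -1, 0; 0, 0, 1]
    ext i j
    fin_cases i <;> fin_cases j <;> simp [mul_apply, Fin.sum_univ_three]
  refine Or.inr ⟨zz, w, hzz, hzc, ⟨xU 1, xL (-1), xU 1 * xL (-1) * xU 1, odd_xU hF 1,
    odd_xL hF (-1), hc1 1, hc2 (-1), ?_, ⟨2, ?_⟩, ?_⟩, ?_, ?_⟩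
  · exact Subgroup.mul_mem _ (Subgroup.mul_mem _ (Subgroup.subset_closure (by simp))
      (Subgroup.subset_closure (by simp))) (Subgroup.subset_closure (by simp))
  · rw [show (2 : ℕ) ^ 2 = 2 * 2 from rfl, pow_mul, ht, hzz]
  · intro h
    apply hzc
    rw [← ht]
    exact Subgroup.pow_mem _ h 2
  · rw [show (8 : ℕ) = 4 * 2 from rfl, pow_mul, hw, hzz]
  · rw [hw]
    exact hzc

end three

section rows

variable (F : Type) [Field F] [Fintype F]

theorem emb_injective {F : Type*} [CommRing F] {ι κ : Type*} [Fintype ι] [DecidableEq ι] [Fintype κ]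
    [DecidableEq κ] (f : κ ↪ ι) : Function.Injective (H514.DP.emb (F := F) f) := by
  intro M N h
  apply Subtype.ext
  ext i j
  have h1 : H514.DP.embM f M.1 = H514.DP.embM f N.1 := congrArg Subtype.val h
  rw [← H514.DP.embM_apply f M.1, ← H514.DP.embM_apply f N.1, h1]

theorem pgood_sl (hF : Odd (Fintype.card F)) (n : ℕ) (hn : 3 ≤ n) :
    PGood (SpecialLinearGroup (Fin n) F) :=
  (pgood_sl_three hF).map (H514.DP.emb (Fin.castLEEmb hn)) (emb_injective _)

theorem row_psl_three_odd (hF : Odd (Fintype.card F)) :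
    Good (Matrix.ProjectiveSpecialLinearGroup (Fin 3) F) := (pgood_sl F hF 3 le_rfl).good

theorem row_psl_odd (hF : Odd (Fintype.card F)) (n : ℕ) (hn : 4 ≤ n) :
    Good (Matrix.ProjectiveSpecialLinearGroup (Fin n) F) := (pgood_sl F hF n (by omega)).good

/-- a perfect subgroup lies in the commutator subgroup -/
theorem pgood_omega {ι : Type} [Fintype ι] [DecidableEq ι] (Q : (ι → F) → F)
    (hF : Odd (Fintype.card F)) (n : ℕ) (hn : 3 ≤ n) (f : GL (Fin n) F →* isometryGroup F Q)
    (hf : Function.Injective f) : PGood (Omega F Q) := by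
  let g : SpecialLinearGroup (Fin n) F →* isometryGroup F Q := f.comp SpecialLinearGroup.toGL
  have hg : Function.Injective g := hf.comp SpecialLinearGroup.toGL_injective
  have hmem : ∀ x, g x ∈ Omega F Q := by
    intro x
    have h1 : x ∈ commutator (SpecialLinearGroup (Fin n) F) := by
      rw [S0248.result n hn]
      exact Subgroup.mem_top x
    have h2 := Subgroup.mem_map_of_mem g h1
    rw [commutator_def, Subgroup.map_commutator] at h2
    exact (Subgroup.commutator_mono le_top le_top) h2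
  refine (pgood_sl F hF n hn).map (g.codRestrict _ hmem) ?_
  intro x y hxy
  apply hg
  exact congrArg Subtype.val hxy

theorem row_pomega_plus_oddq (hF : Odd (Fintype.card F)) (m : ℕ) (hm : 4 ≤ m) :
    Good (POmega F (quadFormPlus m F)) :=
  (pgood_omega F _ hF m (by omega) (H982.LawFam.gPlus F m) (H982.LawFam.gPlus_injective F m)).good

theorem row_pomega_minus_oddq (hF : Odd (Fintype.card F)) (m : ℕ) (hm : 4 ≤ m) (a b : F)
    (_hab : ∀ z₁ z₂ : F, z₁ ^ 2 + a * z₁ * z₂ + b * z₂ ^ 2 = 0 → z₁ = 0 ∧ z₂ = 0) :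
    Good (POmega F (quadFormMinus (m - 1) F a b)) :=
  (pgood_omega F _ hF (m - 1) (by omega) (H982.LawFam.gMinus F (m - 1) a b)
    (H982.LawFam.gMinus_injective F (m - 1) a b)).good

end rows

theorem row_pomega_odd {S : Type*} [Group S] [Finite S] (h : IsPOmegaOdd S) : Good S := by
  obtain ⟨F, _, _, m, hm, hF, ⟨e⟩⟩ := h
  have h1 : Good (POmega F (quadFormOdd m F)) :=
    (pgood_omega F _ hF m hm (H982.LawFam.gOdd F m) (H982.LawFam.gOdd_injective F m)).good
  exact h1.map e.symm.toMonoidHom e.symm.injective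

end Cfsg.Agent.H686.Five
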