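import Mathlib
import Cfsg.Agent.H686.Five.Gen
import Cfsg.Agent.H16.DP.Win
import Cfsg.Prelude.Def_Classification2

/-!
# Rows `PSp_{2m}(q)`, `q` even, `m ≥ 3`
-/

set_option autoImplicit false

open Cfsg

namespace Cfsg.Agent.H686.Five

open Cfsg.Agent.H668.Five Matrix

/-- the commutator form, without inverses -/
theorem Pair.of_comm' {H : Type*} [Group H] {z h a t : H} (hh : Odd (orderOf h))
    (hz : h * z = z * h) (ha : a * z = z * a) (ht : t * a * h = h * a)
    (h2 : ∃ k : ℕ, t ^ (2 ^ k) = 1) (hc : t ∉ Subgroup.center H) : Pair z := by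
  have : h * a * h⁻¹ * a⁻¹ = t := by
    rw [← ht]
    group
  exact Pair.of_comm hh hz ha (by rwa [this]) (by rwa [this])

section two

/-- matrices over the field with two elements -/
abbrev M6 : Type := Matrix (Fin 3 ⊕ Fin 3) (Fin 3 ⊕ Fin 3) (ZMod 2)

/-- the transvection on the pair `0` -/
def mz : M6 := fromBlocks 1 !![1, 0, 0; 0, 0, 0; 0, 0, 0] 0 1

/-- element of order three -/
def mh : M6 := fromBlocks !![1, 0, 0; 0, 0, 1; 0, 1, 1] 0 0 !![1, 0, 0; 0, 1, 1; 0, 1, 0]

/-- transvection on the pair `1` -/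
def ma : M6 := fromBlocks 1 !![0, 0, 0; 0, 1, 0; 0, 0, 0] 0 1

/-- the commutator -/
def mt : M6 := fromBlocks 1 !![0, 0, 0; 0, 1, 0; 0, 0, 1] 0 1

/-- the element of order eight -/
def mw : M6 := fromBlocks !![1, 1, 0; 0, 1, 1; 0, 0, 1] !![0, 0, 0; 0, 0, 1; 0, 0, 1] 0
  !![1, 0, 0; 1, 1, 0; 1, 1, 1]

/-- its fourth power -/
def mw4 : M6 := fromBlocks 1 !![0, 1, 0; 1, 0, 0; 0, 0, 0] 0 1

theorem mz_mem : mz ∈ symplecticGroup (Fin 3) (ZMod 2) := by
  rw [SymplecticGroup.mem_iff]
  decide +kernel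

theorem mh_mem : mh ∈ symplecticGroup (Fin 3) (ZMod 2) := by
  rw [SymplecticGroup.mem_iff]
  decide +kernel

theorem ma_mem : ma ∈ symplecticGroup (Fin 3) (ZMod 2) := by
  rw [SymplecticGroup.mem_iff]
  decide +kernel

theorem mt_mem : mt ∈ symplecticGroup (Fin 3) (ZMod 2) := by
  rw [SymplecticGroup.mem_iff]
  decide +kernel

theorem mw_mem : mw ∈ symplecticGroup (Fin 3) (ZMod 2) := by
  rw [SymplecticGroup.mem_iff]
  decide +kernel

theorem J_mem' : J (Fin 3) (ZMod 2) ∈ symplecticGroup (Fin 3) (ZMod 2) := by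
  rw [SymplecticGroup.mem_iff]
  decide +kernel

theorem pgood_sp_six_two : PGood (symplecticGroup (Fin 3) (ZMod 2)) := by
  let g : ∀ (M : M6), M ∈ symplecticGroup (Fin 3) (ZMod 2) → symplecticGroup (Fin 3) (ZMod 2) :=
    fun M h => ⟨M, h⟩
  have hpow2 : ∀ (M : M6) (hM : M ∈ symplecticGroup (Fin 3) (ZMod 2)), M * M = 1 →
      (g M hM) ^ 2 = 1 := by
    intro M hM h
    apply Subtype.ext
    rw [pow_two]
    exact h
  have hcen : ∀ (M : M6) (hM : M ∈ symplecticGroup (Fin 3) (ZMod 2)),
      J (Fin 3) (ZMod 2) * M ≠ M * J (Fin 3) (ZMod 2) → g M hM ∉ Subgroup.center _ := by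
    intro M hM h
    apply not_center_of_ne (g := g _ J_mem')
    intro hc
    exact h (congrArg Subtype.val hc)
  have hw4 : (g mw mw_mem) ^ 4 = g mw4 (by rw [SymplecticGroup.mem_iff]; decide +kernel) := by
    rw [show (4 : ℕ) = 2 * 2 from rfl, pow_mul, pow_two, pow_two]
    apply Subtype.ext
    show (mw * mw) * (mw * mw) = mw4
    decide +kernel
  refine Or.inr ⟨g mz mz_mem, g mw mw_mem, hpow2 _ _ (by decide +kernel),
    hcen _ _ (by decide +kernel), ?_, ?_, ?_⟩
  · refine Pair.of_comm' (h := g mh mh_mem) (a := g ma ma_mem) (t := g mt mt_mem) ?_ ?_ ?_ ?_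
      ⟨1, ?_⟩ (hcen _ _ (by decide +kernel))
    · apply odd_orderOf_of_pow (n := 3) (by decide)
      apply Subtype.ext
      rw [pow_succ, pow_two]
      show mh * mh * mh = 1
      decide +kernel
    · apply Subtype.ext
      show mh * mz = mz * mh
      decide +kernel
    · apply Subtype.ext
      show ma * mz = mz * ma
      decide +kernel
    · apply Subtype.ext
      show mt * ma * mh = mh * ma
      decide +kernel
    · rw [pow_one]
      exact hpow2 _ _ (by decide +kernel)
  · rw [show (8 : ℕ) = 4 * 2 from rfl, pow_mul, hw4]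
    exact hpow2 _ _ (by decide +kernel)
  · rw [hw4]
    exact hcen _ _ (by decide +kernel)

end two

section map

variable {K F : Type*} [Field K] [Field F] (j : K →+* F)

/-- change of field -/
def mapSpR (ι : Type*) [Fintype ι] [DecidableEq ι] : symplecticGroup ι K →* symplecticGroup ι F where
  toFun A := ⟨A.1.map j, by
    have h := SymplecticGroup.mem_iff.1 A.2
    rw [SymplecticGroup.mem_iff]
    have h1 := congrArg (fun M : Matrix (ι ⊕ ι) (ι ⊕ ι) K => M.map j) h
    have hJ : (J ι K).map j = J ι F := by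
      ext a b
      rcases a with a | a <;> rcases b with b | b <;> simp [J, Matrix.one_apply, apply_ite j]
    simp only [Matrix.map_mul, hJ] at h1
    rwa [Matrix.transpose_map] at h1⟩
  map_one' := by
    apply Subtype.ext
    exact Matrix.map_one j (map_zero j) (map_one j)
  map_mul' A B := by
    apply Subtype.ext
    exact Matrix.map_mul

theorem mapSpR_injective (ι : Type*) [Fintype ι] [DecidableEq ι] :
    Function.Injective (mapSpR j ι) := by
  intro A B h
  apply Subtype.ext
  have h1 : A.1.map j = B.1.map j := congrArg Subtype.val h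
  exact Matrix.map_injective j.injective h1

end map

theorem spEmb_injective {F : Type*} [Field F] {ι κ : Type*} [Fintype ι] [DecidableEq ι] [Fintype κ]
    [DecidableEq κ] (f : κ ↪ ι) : Function.Injective (H16.DP.spEmb (F := F) f) := by
  classical
  unfold H16.DP.spEmb
  intro a b h
  have h1 := H376.SpEmb.reidx_injective _ h
  have h2 := H376.SpEmb.blk_injective _ _ h1
  exact (Prod.ext_iff.1 h2).1

theorem pgood_sp_even (F : Type) [Field F] [Fintype F] (hF : Even (Fintype.card F)) (m : ℕ)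
    (hm : 3 ≤ m) : PGood (symplecticGroup (Fin m) F) := by
  have hc : ringChar F = 2 := by
    exact (FiniteField.even_card_iff_char_two).2 (Nat.even_iff.1 hF)
  have : CharP F 2 := ringChar.of_eq hc
  exact (pgood_sp_six_two.map (mapSpR (ZMod.castHom (dvd_refl 2) F) (Fin 3))
    (mapSpR_injective _ _)).map (H16.DP.spEmb (Fin.castLEEmb hm)) (spEmb_injective _)

theorem row_psp_even (F : Type) [Field F] [Fintype F] (hF : Even (Fintype.card F)) (m : ℕ)
    (hm : 3 ≤ m) : Good (PSp m F) := (pgood_sp_even F hF m hm).good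

end Cfsg.Agent.H686.Five
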