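import Mathlib
import Cfsg.Agent.H686.Five.Gen
import Cfsg.Agent.H292.SpCen
import Cfsg.Prelude.Def_Classification2

/-!
# Row `PSp_4(q)`, `q ≥ 4` even
-/

set_option autoImplicit false
set_option linter.unusedSectionVars false
set_option linter.unusedSimpArgs false

open Cfsg

namespace Cfsg.Agent.H686.Five

open Cfsg.Agent.H668.Five Matrix

theorem compl_of_isPGroup {G : Type*} [Group G] [Finite G] (h : IsPGroup 2 G) :
    HasNormalPComplement 2 G := by
  have : Fact (Nat.Prime 2) := ⟨Nat.prime_two⟩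
  obtain ⟨P⟩ : Nonempty (Sylow 2 G) := inferInstance
  refine ⟨P, ⊥, inferInstance, ?_⟩
  have hP : (P : Subgroup G) = ⊤ := by
    have h1 : IsPGroup 2 (⊤ : Subgroup G) := h.to_subgroup _
    exact (P.is_maximal' h1 le_top).symm
  rw [hP]
  exact Subgroup.isComplement'_bot_top

section

variable {F : Type*} [Field F] [CharP F 2]

/-- the group -/
abbrev S4 (F : Type*) [Field F] := symplecticGroup (Fin 2) F

/-- upper unitriangular element -/
def up (T : Matrix (Fin 2) (Fin 2) F) (hT : T.transpose = T) : S4 F :=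
  ⟨fromBlocks 1 T 0 1, LieClassical.SympCenter.upper_mem 2 hT⟩

/-- the torus element -/
def tor (c : F) (hc : c ≠ 0) : S4 F :=
  ⟨fromBlocks !![1, 0; 0, c] 0 0 !![1, 0; 0, c⁻¹], by
    rw [SymplecticGroup.fromBlocks_mem_iff]
    refine ⟨by simp, by simp, ?_⟩
    ext i j
    fin_cases i <;> fin_cases j <;> simp [mul_apply, Fin.sum_univ_two, hc]⟩

/-- the element of order four -/
def vv : S4 F :=
  ⟨fromBlocks !![0, 1; 1, 0] !![0, 0; 1, 0] 0 !![0, 1; 1, 0], by
    rw [SymplecticGroup.fromBlocks_mem_iff]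
    refine ⟨by simp, ?_, ?_⟩
    · ext i j
      fin_cases i <;> fin_cases j <;> simp [mul_apply, Fin.sum_univ_two]
    · ext i j
      fin_cases i <;> fin_cases j <;> simp [mul_apply, Fin.sum_univ_two]⟩

theorem up_mul (T T' : Matrix (Fin 2) (Fin 2) F) (hT : T.transpose = T) (hT' : T'.transpose = T')
    (h : (T + T').transpose = T + T') : up T hT * up T' hT' = up (T + T') h := by
  apply Subtype.ext
  show fromBlocks 1 T 0 1 * fromBlocks 1 T' 0 1 = fromBlocks 1 (T + T') 0 1
  rw [fromBlocks_multiply]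
  simp [add_comm]

theorem up_inj {T T' : Matrix (Fin 2) (Fin 2) F} {hT : T.transpose = T} {hT' : T'.transpose = T'}
    (h : up T hT = up T' hT') : T = T' :=
  (fromBlocks_inj.1 (congrArg Subtype.val h)).2.1

theorem up_zero : up (0 : Matrix (Fin 2) (Fin 2) F) (by simp) = 1 := by
  apply Subtype.ext
  exact fromBlocks_one

theorem add_self_mat (T : Matrix (Fin 2) (Fin 2) F) : T + T = 0 := by
  ext i j
  exact CharTwo.add_self_eq_zero _

theorem orderOf_up {T : Matrix (Fin 2) (Fin 2) F} (hT : T.transpose = T) (h0 : T ≠ 0) :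
    orderOf (up T hT) = 2 := by
  apply orderOf_eq_prime
  · rw [pow_two, up_mul T T hT hT (by rw [add_self_mat]; simp)]
    have : up (T + T) (by rw [add_self_mat]; simp) = up 0 (by simp) := by
      apply Subtype.ext
      show fromBlocks 1 (T + T) 0 1 = fromBlocks 1 0 0 1
      rw [add_self_mat]
    rw [this, up_zero]
  · intro h
    rw [← up_zero] at h
    exact h0 (up_inj h)

theorem vv_sq : (vv : S4 F) ^ 2 = up 1 (by simp) := by
  rw [pow_two]
  apply Subtype.ext
  show fromBlocks !![0, 1; 1, 0] !![0, 0; 1, 0] 0 !![0, 1; 1, 0] *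
    fromBlocks !![0, 1; 1, 0] !![0, 0; 1, 0] 0 !![0, 1; 1, 0] = fromBlocks 1 (1 : Matrix (Fin 2) (Fin 2) F) 0 1
  rw [fromBlocks_multiply, fromBlocks_inj]
  refine ⟨?_, ?_, ?_, ?_⟩
  all_goals
    ext i j
    fin_cases i <;> fin_cases j <;> simp [mul_apply, Fin.sum_univ_two]

theorem orderOf_vv : orderOf (vv : S4 F) = 4 := by
  have h1 : orderOf (up (1 : Matrix (Fin 2) (Fin 2) F) (by simp)) = 2 := orderOf_up _ one_ne_zero
  have : Fact (Nat.Prime 2) := ⟨Nat.prime_two⟩
  rw [show (4 : ℕ) = 2 ^ (1 + 1) from rfl]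
  apply orderOf_eq_prime_pow
  · rw [pow_one, vv_sq]
    intro h
    rw [h, orderOf_one] at h1
    omega
  · rw [show (2 : ℕ) ^ (1 + 1) = 2 * 2 from rfl, pow_mul, vv_sq]
    exact orderOf_dvd_iff_pow_eq_one.1 (dvd_of_eq h1)

/-- the centralizer of `up 1` has exponent dividing four -/
theorem cent_pow (g : S4 F) (hg : g * up 1 (by simp) = up 1 (by simp) * g) : g ^ 4 = 1 := by
  obtain ⟨M, hM⟩ := g
  obtain ⟨A, B, C, D, rfl⟩ : ∃ A B C D : Matrix (Fin 2) (Fin 2) F, M = fromBlocks A B C D :=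
    ⟨_, _, _, _, (fromBlocks_toBlocks M).symm⟩
  have h1 : fromBlocks A B C D * fromBlocks 1 1 0 1 = fromBlocks 1 1 0 1 * fromBlocks A B C D :=
    congrArg Subtype.val hg
  rw [fromBlocks_multiply, fromBlocks_multiply, fromBlocks_inj] at h1
  obtain ⟨h11, h12, h21, h22⟩ := h1
  simp only [Matrix.mul_one, Matrix.one_mul, Matrix.mul_zero, Matrix.zero_mul, add_zero,
    zero_add] at h11 h12 h21 h22
  have hC : C = 0 := by
    have : A + C = A := h11.symm
    simpa using this
  subst hC
  have hD : D = A := by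
    have : A + B = B + D := h12
    rw [add_comm] at this
    exact (add_left_cancel this).symm
  subst hD
  rw [SymplecticGroup.fromBlocks_mem_iff] at hM
  have hA : Dᵀ * D = 1 := by
    have := hM.2.2
    simpa using this
  have hD2 : D * D = 1 := by
    have e00 := congrFun (congrFun hA 0) 0
    have e01 := congrFun (congrFun hA 0) 1
    have e11 := congrFun (congrFun hA 1) 1
    simp only [mul_apply, Fin.sum_univ_two, transpose_apply, one_apply_eq, ne_eq, zero_ne_one,
      not_false_eq_true, one_apply_ne] at e00 e01 e11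
    have h2 : (2 : F) = 0 := CharTwo.two_eq_zero
    -- a + c = 1, b + d = 1
    have hac : D 0 0 + D 1 0 = 1 := by
      have : (D 0 0 + D 1 0 + 1) * (D 0 0 + D 1 0 + 1) = 0 := by
        linear_combination e00 + (D 0 0 * D 1 0 + D 0 0 + D 1 0 + 1) * h2
      have h3 := mul_self_eq_zero.1 this
      linear_combination h3 - h2
    have hbd : D 0 1 + D 1 1 = 1 := by
      have : (D 0 1 + D 1 1 + 1) * (D 0 1 + D 1 1 + 1) = 0 := by
        linear_combination e11 + (D 0 1 * D 1 1 + D 0 1 + D 1 1 + 1) * h2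
      have h3 := mul_self_eq_zero.1 this
      linear_combination h3 - h2
    have hc : D 1 0 = 1 + D 0 0 := by linear_combination hac - D 0 0 * h2
    have hd : D 1 1 = 1 + D 0 1 := by linear_combination hbd - D 0 1 * h2
    have hb : D 0 1 = 1 + D 0 0 := by
      rw [hc, hd] at e01
      linear_combination e01 - (1 + D 0 0 + D 0 0 * D 0 1) * h2
    have hd' : D 1 1 = D 0 0 := by
      rw [hd, hb]
      linear_combination h2
    ext i j
    fin_cases i <;> fin_cases j
    · show (D * D) 0 0 = 1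
      rw [mul_apply, Fin.sum_univ_two, hb, hc]
      linear_combination (D 0 0 * D 0 0 + D 0 0) * h2
    · show (D * D) 0 1 = 0
      rw [mul_apply, Fin.sum_univ_two, hb, hd']
      linear_combination (D 0 0 * (1 + D 0 0)) * h2
    · show (D * D) 1 0 = 0
      rw [mul_apply, Fin.sum_univ_two, hc, hd']
      linear_combination (D 0 0 * (1 + D 0 0)) * h2
    · show (D * D) 1 1 = 1
      rw [mul_apply, Fin.sum_univ_two, hb, hc, hd']
      linear_combination (D 0 0 * D 0 0 + D 0 0) * h2
  have hsq : ∀ (P : Matrix (Fin 2 ⊕ Fin 2) (Fin 2 ⊕ Fin 2) F) (hP : P ∈ symplecticGroup (Fin 2) F),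
      P * P * (P * P) = 1 → (⟨P, hP⟩ : S4 F) ^ 4 = 1 := by
    intro P hP h
    rw [show (4 : ℕ) = 2 * 2 from rfl, pow_mul, pow_two, pow_two]
    apply Subtype.ext
    exact h
  apply hsq
  rw [fromBlocks_multiply, fromBlocks_multiply, hD2]
  simp only [Matrix.mul_zero, Matrix.zero_mul, add_zero, zero_add, Matrix.one_mul, Matrix.mul_one]
  rw [add_self_mat, fromBlocks_one]

end

variable (F : Type) [Field F] [Fintype F]

theorem good3_sp_four [CharP F 2] (hF4 : 4 ≤ Fintype.card F) : Good3 (S4 F) := by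
  classical
  have hEx : (!![1, 0; 0, 0] : Matrix (Fin 2) (Fin 2) F).transpose = !![1, 0; 0, 0] := by
    ext i j
    fin_cases i <;> fin_cases j <;> rfl
  have hE : ∀ c : F, (!![0, 0; 0, c] : Matrix (Fin 2) (Fin 2) F).transpose = !![0, 0; 0, c] := by
    intro c
    ext i j
    fin_cases i <;> fin_cases j <;> rfl
  -- the scalar
  obtain ⟨c, hc0, hc1⟩ : ∃ c : F, c ≠ 0 ∧ c ≠ 1 := by
    by_contra hcon
    push Not at hcon
    have : (Finset.univ : Finset F) ⊆ {0, 1} := by
      intro a _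
      by_cases ha : a = 0
      · simp [ha]
      · simp [hcon a ha]
    have h2 := Finset.card_le_card this
    rw [Finset.card_univ] at h2
    have h3 : ({0, 1} : Finset F).card ≤ 2 := Finset.card_le_two
    omega
  have hc2 : c * c - 1 ≠ 0 := by
    intro h
    apply hc1
    have h2 : (2 : F) = 0 := CharTwo.two_eq_zero
    have h3 : (c - 1) * (c - 1) = 0 := by linear_combination h + (1 - c) * h2
    exact sub_eq_zero.1 (mul_self_eq_zero.1 h3)
  have hodd : Odd (Fintype.card F - 1) := by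
    have h2 : Even (Fintype.card F) := by
      have := (FiniteField.even_card_iff_char_two (F := F)).1 (ringChar.eq F 2)
      exact Nat.even_iff.2 this
    obtain ⟨k, hk⟩ := h2
    exact ⟨k - 1, by omega⟩
  have htor : Odd (orderOf (tor c hc0)) := by
    apply odd_orderOf_of_pow hodd
    apply Subtype.ext
    have h1 : ∀ n : ℕ, ((tor c hc0) ^ n).1 = (fromBlocks !![1, 0; 0, c] 0 0 !![1, 0; 0, c⁻¹]) ^ n :=
      fun n => SubmonoidClass.coe_pow _ _
    refine (h1 _).trans ?_
    have h2 : (fromBlocks !![1, 0; 0, c] 0 0 !![1, 0; 0, c⁻¹] : Matrix (Fin 2 ⊕ Fin 2) (Fin 2 ⊕ Fin 2) F)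
        = diagonal (Sum.elim ![1, c] ![1, c⁻¹]) := by
      rw [← fromBlocks_diagonal]
      congr 1 <;> (ext i j; fin_cases i <;> fin_cases j <;> simp)
    rw [h2, diagonal_pow]
    show _ = (1 : Matrix (Fin 2 ⊕ Fin 2) (Fin 2 ⊕ Fin 2) F)
    rw [← diagonal_one]
    congr 1
    funext i
    have h3 := FiniteField.pow_card_sub_one_eq_one c hc0
    have h4 := FiniteField.pow_card_sub_one_eq_one c⁻¹ (inv_ne_zero hc0)
    rcases i with i | i
    · fin_cases i
      · simp
      · simpa using h3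
    · fin_cases i
      · simp
      · simpa using h4
  have hx0 : (!![1, 0; 0, 0] : Matrix (Fin 2) (Fin 2) F) ≠ 0 := by
    intro h
    have := congrFun (congrFun h 0) 0
    simp at this
  have ht0 : (!![0, 0; 0, c * c - 1] : Matrix (Fin 2) (Fin 2) F) ≠ 0 := by
    intro h
    have := congrFun (congrFun h 1) 1
    simp at this
    exact hc2 this
  have hNN : NN (up _ hEx : S4 F) := by
    refine NN.of_gen (x := tor c hc0) (y := up _ (hE 1) * (tor c hc0)⁻¹ * (up _ (hE 1))⁻¹)
      (t := up _ (hE (c * c - 1))) htor ?_ ?_ ?_ ?_ ?_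
    · have : up _ (hE 1) * (tor c hc0)⁻¹ * (up _ (hE 1))⁻¹ = MulAut.conj (up _ (hE 1)) (tor c hc0)⁻¹ := rfl
      rw [this, MulEquiv.orderOf_eq, orderOf_inv]
      exact htor
    · apply Subtype.ext
      show fromBlocks !![1, 0; 0, c] 0 0 !![1, 0; 0, c⁻¹] * fromBlocks 1 !![1, 0; 0, 0] 0 1 =
        fromBlocks 1 !![1, 0; 0, 0] 0 1 * fromBlocks !![1, 0; 0, c] 0 0 !![1, 0; 0, c⁻¹]
      rw [fromBlocks_multiply, fromBlocks_multiply, fromBlocks_inj]
      refine ⟨?_, ?_, ?_, ?_⟩
      all_goals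
        ext i j
        fin_cases i <;> fin_cases j <;> simp [mul_apply, Fin.sum_univ_two]
    · have h1 : Commute (up _ (hE 1)) (up _ hEx : S4 F) := by
        apply Subtype.ext
        show fromBlocks 1 !![0, 0; 0, 1] 0 1 * fromBlocks 1 !![1, 0; 0, 0] 0 1 =
          fromBlocks 1 !![1, 0; 0, 0] 0 1 * fromBlocks 1 !![0, 0; 0, 1] 0 1
        rw [fromBlocks_multiply, fromBlocks_multiply]
        simp [add_comm]
      have h2 : Commute (tor c hc0) (up _ hEx : S4 F) := by
        apply Subtype.ext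
        show fromBlocks !![1, 0; 0, c] 0 0 !![1, 0; 0, c⁻¹] * fromBlocks 1 !![1, 0; 0, 0] 0 1 =
          fromBlocks 1 !![1, 0; 0, 0] 0 1 * fromBlocks !![1, 0; 0, c] 0 0 !![1, 0; 0, c⁻¹]
        rw [fromBlocks_multiply, fromBlocks_multiply, fromBlocks_inj]
        refine ⟨?_, ?_, ?_, ?_⟩
        all_goals
          ext i j
          fin_cases i <;> fin_cases j <;> simp [mul_apply, Fin.sum_univ_two]
      exact ((h1.mul_left h2.inv_left).mul_left h1.inv_left)
    · have h1 : up _ (hE (c * c - 1)) * up _ (hE 1) * tor c hc0 = tor c hc0 * up _ (hE 1) := by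
        apply Subtype.ext
        show fromBlocks 1 !![0, 0; 0, c * c - 1] 0 1 * fromBlocks 1 !![0, 0; 0, 1] 0 1 *
            fromBlocks !![1, 0; 0, c] 0 0 !![1, 0; 0, c⁻¹] =
          fromBlocks !![1, 0; 0, c] 0 0 !![1, 0; 0, c⁻¹] * fromBlocks 1 !![0, 0; 0, 1] 0 1
        rw [fromBlocks_multiply, fromBlocks_multiply, fromBlocks_multiply, fromBlocks_inj]
        refine ⟨?_, ?_, ?_, ?_⟩
        all_goals
          ext i j
          fin_cases i <;> fin_cases j <;> simp [mul_apply, Fin.sum_univ_two, hc0]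
      have h2 : up _ (hE (c * c - 1)) =
          tor c hc0 * (up _ (hE 1) * (tor c hc0)⁻¹ * (up _ (hE 1))⁻¹) := by
        rw [← mul_assoc, ← mul_assoc, ← h1]
        group
      rw [h2]
      exact Subgroup.mul_mem _ (Subgroup.subset_closure (by simp)) (Subgroup.subset_closure (by simp))
    · rw [orderOf_up _ ht0]
  refine ⟨up _ hEx, up 1 (by simp), vv, orderOf_up _ hx0, hNN, orderOf_up _ one_ne_zero, ?_, orderOf_vv⟩
  intro e he
  have h1 : NN (up 1 (by simp) : S4 F) := by
    rw [← he]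
    exact hNN.of_mulEquiv e
  apply h1
  apply compl_of_isPGroup
  intro g
  refine ⟨2, ?_⟩
  apply Subtype.ext
  rw [show (2 : ℕ) ^ 2 = 4 from rfl]
  exact cent_pow g.1 (Subgroup.mem_centralizer_singleton_iff.1 g.2)

theorem row_psp_four_even (hF : Even (Fintype.card F)) (hF4 : 4 ≤ Fintype.card F) :
    Good3 (PSp 2 F) := by
  have hc : ringChar F = 2 := (FiniteField.even_card_iff_char_two).2 (Nat.even_iff.1 hF)
  have : CharP F 2 := ringChar.of_eq hc
  exact (good3_sp_four F hF4).congr (H292.SpCen.spEquiv 2)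

end Cfsg.Agent.H686.Five
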