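import Mathlib
import Cfsg.Agent.H686.Five.SL
import Cfsg.Agent.H631.PSp

/-!
# Rows `PSp_{2m}(q)`, `q` odd
-/

set_option autoImplicit false

open Cfsg

namespace Cfsg.Agent.H686.Five

open Cfsg.Agent.H668.Five Matrix Cfsg.Agent.H631

section two

variable {F : Type*} [Field F]

/-- upper transvection -/
def x2 (a : F) : SpecialLinearGroup (Fin 2) F := ⟨!![1, a; 0, 1], by simp [det_fin_two]⟩

/-- lower transvection -/
def y2 (a : F) : SpecialLinearGroup (Fin 2) F := ⟨!![1, 0; a, 1], by simp [det_fin_two]⟩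

/-- the element of order four -/
def w2 : SpecialLinearGroup (Fin 2) F := ⟨!![0, 1; -1, 0], by simp [det_fin_two]⟩

theorem x2_zero : x2 (0 : F) = 1 := by
  apply Subtype.ext
  show !![1, (0 : F); 0, 1] = 1
  ext i j
  fin_cases i <;> fin_cases j <;> simp

theorem y2_zero : y2 (0 : F) = 1 := by
  apply Subtype.ext
  show !![1, (0 : F); 0, 1] = 1
  ext i j
  fin_cases i <;> fin_cases j <;> simp

theorem x2_mul (a b : F) : x2 a * x2 b = x2 (a + b) := by
  apply sl_mul_eq
  show !![1, a; 0, 1] * !![1, b; 0, 1] = !![1, a + b; 0, 1]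
  ext i j
  fin_cases i <;> fin_cases j <;> simp [mul_apply, Fin.sum_univ_two]
  ring

theorem y2_mul (a b : F) : y2 a * y2 b = y2 (a + b) := by
  apply sl_mul_eq
  show !![1, 0; a, 1] * !![1, 0; b, 1] = !![1, 0; a + b, 1]
  ext i j
  fin_cases i <;> fin_cases j <;> simp [mul_apply, Fin.sum_univ_two]

theorem x2_pow (a : F) (n : ℕ) : x2 a ^ n = x2 (n * a) := by
  induction n with
  | zero => rw [pow_zero, Nat.cast_zero, zero_mul, x2_zero]
  | succ n ih =>
    rw [pow_succ, ih, x2_mul]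
    congr 1
    push_cast
    ring

theorem y2_pow (a : F) (n : ℕ) : y2 a ^ n = y2 (n * a) := by
  induction n with
  | zero => rw [pow_zero, Nat.cast_zero, zero_mul, y2_zero]
  | succ n ih =>
    rw [pow_succ, ih, y2_mul]
    congr 1
    push_cast
    ring

theorem w2_eq : x2 1 * y2 (-1) * x2 1 = (w2 : SpecialLinearGroup (Fin 2) F) := by
  apply sl_mul_eq
  show (!![1, 1; 0, 1] * !![1, 0; -1, 1]) * !![1, 1; 0, 1] = !![0, (1 : F); -1, 0]
  ext i j
  fin_cases i <;> fin_cases j <;> simp [mul_apply, Fin.sum_univ_two]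

/-- minus one -/
def m2 : SpecialLinearGroup (Fin 2) F := ⟨!![-1, 0; 0, -1], by simp [det_fin_two]⟩

theorem w2_sq : (w2 : SpecialLinearGroup (Fin 2) F) ^ 2 = m2 := by
  rw [pow_two]
  apply sl_mul_eq
  show !![0, (1 : F); -1, 0] * !![0, (1 : F); -1, 0] = !![-1, 0; 0, -1]
  ext i j
  fin_cases i <;> fin_cases j <;> simp [mul_apply, Fin.sum_univ_two]

theorem m2_sq : (m2 : SpecialLinearGroup (Fin 2) F) ^ 2 = 1 := by
  rw [pow_two]
  apply sl_mul_eq
  show !![-1, (0 : F); 0, -1] * !![-1, (0 : F); 0, -1] = 1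
  ext i j
  fin_cases i <;> fin_cases j <;> simp [mul_apply, Fin.sum_univ_two]

theorem w2_four : (w2 : SpecialLinearGroup (Fin 2) F) ^ 4 = 1 := by
  rw [show (4 : ℕ) = 2 * 2 from rfl, pow_mul, w2_sq, m2_sq]

variable [Fintype F]

theorem odd_x2 (hF : Odd (Fintype.card F)) (a : F) : Odd (orderOf (x2 a)) := by
  apply odd_orderOf_of_pow hF
  rw [x2_pow, Nat.cast_card_eq_zero, zero_mul, x2_zero]

theorem odd_y2 (hF : Odd (Fintype.card F)) (a : F) : Odd (orderOf (y2 a)) := by
  apply odd_orderOf_of_pow hF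
  rw [y2_pow, Nat.cast_card_eq_zero, zero_mul, y2_zero]

omit [Fintype F] in
theorem x2_w2 : x2 1 * (w2 : SpecialLinearGroup (Fin 2) F) ≠ w2 * x2 1 := by
  intro h
  have h1 : (!![1, 1; 0, 1] : Matrix (Fin 2) (Fin 2) F) * !![0, 1; -1, 0] =
      !![0, 1; -1, 0] * !![1, 1; 0, 1] := congrArg Subtype.val h
  have h2 := congrFun (congrFun h1 0) 0
  simp [mul_apply, Fin.sum_univ_two] at h2

end two

section rows

variable (F : Type) [Field F] [Fintype F]

/-- the block at `i` -/
def fblk {m : ℕ} (i : Fin m) : SpecialLinearGroup (Fin 2) F →* symplecticGroup (Fin m) F where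
  toFun a := PsiSp (Pi.mulSingle i a)
  map_one' := by rw [Pi.mulSingle_one, map_one]
  map_mul' a b := by rw [Pi.mulSingle_mul, map_mul]

theorem fblk_injective {m : ℕ} (i : Fin m) : Function.Injective (fblk F i) := by
  intro a b h
  have h1 : (Pi.mulSingle i a : Fin m → SpecialLinearGroup (Fin 2) F) = Pi.mulSingle i b :=
    PsiSp_injective h
  have h2 := congrFun h1 i
  rwa [Pi.mulSingle_eq_same, Pi.mulSingle_eq_same] at h2

theorem fblk_comm {m : ℕ} {i j : Fin m} (hij : i ≠ j) (a b : SpecialLinearGroup (Fin 2) F) :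
    fblk F i a * fblk F j b = fblk F j b * fblk F i a := by
  have h1 : (Pi.mulSingle i a : Fin m → SpecialLinearGroup (Fin 2) F) * Pi.mulSingle j b =
      Pi.mulSingle j b * Pi.mulSingle i a := by
    funext k
    rw [Pi.mul_apply, Pi.mul_apply]
    by_cases hi : k = i
    · subst hi
      rw [Pi.mulSingle_eq_of_ne hij, mul_one, one_mul]
    · rw [Pi.mulSingle_eq_of_ne hi, mul_one, one_mul]
  show PsiSp _ * PsiSp _ = PsiSp _ * PsiSp _
  rw [← map_mul, ← map_mul, h1]

theorem pgood_sp_odd (hF : Odd (Fintype.card F)) (m : ℕ) (hm : 2 ≤ m) :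
    PGood (symplecticGroup (Fin m) F) := by
  let i0 : Fin m := ⟨0, by omega⟩
  let i1 : Fin m := ⟨1, by omega⟩
  have h01 : i0 ≠ i1 := by
    intro h
    have := congrArg Fin.val h
    simp [i0, i1] at this
  refine Or.inl ⟨fblk F i0 w2, ?_, ?_, fblk F i1 (x2 1), fblk F i1 (y2 (-1)), fblk F i1 w2, ?_, ?_,
    fblk_comm F h01.symm _ _, fblk_comm F h01.symm _ _, ?_, ⟨2, ?_⟩, ?_⟩
  · rw [← map_pow, w2_four, map_one]
  · rw [← map_pow, w2_sq]
    let S : SpecialLinearGroup (Fin m) F := ⟨transvection i0 i1 1, det_transvection_of_ne i0 i1 h01 1⟩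
    apply not_center_of_ne (g := H982.LawFam.gSp F m (SpecialLinearGroup.toGL S))
    intro h
    have h1 := congrArg Subtype.val h
    obtain ⟨s, hs⟩ : ∃ s : Fin m → SpecialLinearGroup (Fin 2) F, s = Pi.mulSingle i0 m2 := ⟨_, rfl⟩
    have hs0 : s i0 = m2 := by rw [hs, Pi.mulSingle_eq_same]
    have hs1 : s i1 = 1 := by rw [hs, Pi.mulSingle_eq_of_ne h01.symm]
    have h2 : fromBlocks (transvection i0 i1 (1 : F)) 0 0
        (((SpecialLinearGroup.toGL S)⁻¹ : GL (Fin m) F) : Matrix (Fin m) (Fin m) F)ᵀ *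
        bl (fun i => (s i).1) = bl (fun i => (s i).1) *
        fromBlocks (transvection i0 i1 (1 : F)) 0 0
        (((SpecialLinearGroup.toGL S)⁻¹ : GL (Fin m) F) : Matrix (Fin m) (Fin m) F)ᵀ := by
      rw [hs]
      exact h1
    unfold bl at h2
    rw [fromBlocks_multiply, fromBlocks_multiply, fromBlocks_inj] at h2
    have h3 := congrFun (congrFun h2.1 i0) i1
    rw [Matrix.zero_mul, Matrix.mul_zero, add_zero, add_zero, mul_diagonal, diagonal_mul] at h3
    have h4 : (s i0).1 0 0 = -1 := by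
      rw [hs0]
      rfl
    have h5 : (s i1).1 0 0 = 1 := by
      rw [hs1]
      rfl
    have h6 : transvection i0 i1 (1 : F) i0 i1 = 1 := by
      simp [transvection, h01]
    have h7 : transvection i0 i1 (1 : F) i0 i1 * (s i1).1 0 0 =
      (s i0).1 0 0 * transvection i0 i1 (1 : F) i0 i1 := h3
    rw [h4, h5, h6] at h7
    apply neg_one_ne hF
    linear_combination -h7
  · rw [orderOf_injective _ (fblk_injective F i1)]
    exact odd_x2 hF 1
  · rw [orderOf_injective _ (fblk_injective F i1)]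
    exact odd_y2 hF (-1)
  · rw [← w2_eq, map_mul, map_mul]
    exact Subgroup.mul_mem _ (Subgroup.mul_mem _ (Subgroup.subset_closure (by simp))
      (Subgroup.subset_closure (by simp))) (Subgroup.subset_closure (by simp))
  · rw [show (2 : ℕ) ^ 2 = 4 from rfl, ← map_pow, w2_four, map_one]
  · apply not_center_of_ne (g := fblk F i1 (x2 1))
    intro h
    apply x2_w2 (F := F)
    apply fblk_injective F i1
    rw [map_mul, map_mul]
    exact h

theorem row_psp_odd (hF : Odd (Fintype.card F)) (m : ℕ) (hm : 2 ≤ m) : Good (PSp m F) :=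
  (pgood_sp_odd F hF m hm).good

end rows

end Cfsg.Agent.H686.Five
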